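import Mathlib
import Cfsg.Agent.Transfer.NilpotentHall

/-!
# Counting elements by the sizes of their conjugacy classes (Cossey, Hawkes, Mann)
-/

set_option autoImplicit false

namespace CfsgLib.ClassSizeCount

open Subgroup

variable {G : Type*} [Group G] [Finite G]

/-- The index of the centralizer of an element. -/
noncomputable def idx (x : G) : ℕ := (Subgroup.centralizer ({x} : Set G)).index

theorem idx_ne_zero (x : G) : idx x ≠ 0 := Subgroup.index_ne_zero_of_finite

theorem card_carrier (x : G) : Nat.card (ConjClasses.mk x).carrier = idx x := by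
  rw [idx, Subgroup.index, ← ConjAct.orbit_eq_carrier_conjClasses]
  refine Nat.card_congr ((MulAction.orbitEquivQuotientStabilizer (ConjAct G) x).trans ?_)
  rw [ConjAct.stabilizer_eq_centralizer]
  exact Equiv.refl _

theorem card_eq_sum {X : Type*} [Group X] [Finite X] [Fintype (ConjClasses X)] (P : ℕ → Prop) [DecidablePred P] :
    Nat.card {x : X // P (idx x)} =
      ∑ C : ConjClasses X, if P (Nat.card C.carrier) then Nat.card C.carrier else 0 := by
  rw [← Nat.card_congr (Equiv.sigmaFiberEquiv (fun x : {x : X // P (idx x)} => ConjClasses.mk x.1)),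
    Nat.card_sigma]
  refine Finset.sum_congr rfl fun C _ => ?_
  by_cases hC : P (Nat.card C.carrier)
  · rw [if_pos hC]
    refine Nat.card_congr
      { toFun := fun x => ⟨x.1.1, ConjClasses.mem_carrier_iff_mk_eq.2 x.2⟩
        invFun := fun y => ⟨⟨y.1, ?_⟩, ConjClasses.mem_carrier_iff_mk_eq.1 y.2⟩
        left_inv := fun x => rfl
        right_inv := fun y => rfl }
    rw [← card_carrier, ConjClasses.mem_carrier_iff_mk_eq.1 y.2]
    exact hC
  · rw [if_neg hC]
    haveI : IsEmpty {x : {x : X // P (idx x)} // ConjClasses.mk x.1 = C} :=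
      ⟨fun x => hC (by rw [← x.2, card_carrier]; exact x.1.2)⟩
    exact Nat.card_of_isEmpty

/-- The number of elements with a given property of the class size is determined by the numbers
of classes of each size. -/
theorem card_eq_of_class_counts {H : Type*} [Group H] [Finite H]
    (h : ∀ k : ℕ, Nat.card {C : ConjClasses G // Nat.card C.carrier = k} =
      Nat.card {C : ConjClasses H // Nat.card C.carrier = k}) (P : ℕ → Prop) :
    Nat.card {x : G // P (idx x)} = Nat.card {x : H // P (idx x)} := by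
  classical
  have e : ∃ e : ConjClasses G ≃ ConjClasses H, ∀ C, Nat.card (e C).carrier = Nat.card C.carrier := by
    have hk : ∀ k, Nonempty ({C : ConjClasses G // Nat.card C.carrier = k} ≃
        {C : ConjClasses H // Nat.card C.carrier = k}) := fun k => Finite.card_eq.1 (h k)
    let ek := fun k => (hk k).some
    refine ⟨(Equiv.sigmaFiberEquiv (fun C : ConjClasses G => Nat.card C.carrier)).symm.trans
      ((Equiv.sigmaCongrRight ek).trans
        (Equiv.sigmaFiberEquiv (fun C : ConjClasses H => Nat.card C.carrier))), fun C => ?_⟩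
    exact ((ek (Nat.card C.carrier)) ⟨C, rfl⟩).2
  obtain ⟨e, he⟩ := e
  haveI : Fintype (ConjClasses G) := Fintype.ofFinite _
  haveI : Fintype (ConjClasses H) := Fintype.ofFinite _
  rw [card_eq_sum, card_eq_sum]
  exact Fintype.sum_equiv e _ _ (fun C => by rw [he])

theorem idx_eq_one_iff (x : G) : idx x = 1 ↔ x ∈ Subgroup.center G := by
  rw [idx, Subgroup.index_eq_one, Subgroup.centralizer_eq_top_iff_subset, Set.singleton_subset_iff]
  rfl

theorem card_sup_mul (A N : Subgroup G) [N.Normal] :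
    Nat.card ↥(A ⊔ N) * Nat.card ↥(A ⊓ N) = Nat.card A * Nat.card N := by
  have h1 := Subgroup.card_mul_index (N.subgroupOf (A ⊔ N))
  rw [Nat.card_congr (Subgroup.subgroupOfEquivOfLe (le_sup_right : N ≤ A ⊔ N)).toEquiv] at h1
  have h2 := Subgroup.card_mul_index (N.subgroupOf A)
  have h3 : Nat.card ↥(N.subgroupOf A) = Nat.card ↥(A ⊓ N) := by
    rw [← Subgroup.inf_subgroupOf_right N A, inf_comm]
    exact Nat.card_congr (Subgroup.subgroupOfEquivOfLe inf_le_left).toEquiv
  rw [h3] at h2
  have h4 : (N.subgroupOf (A ⊔ N)).index = (N.subgroupOf A).index := Subgroup.relIndex_sup_right A N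
  rw [← h1, ← h2, h4]
  ring

theorem exists_sylow_le_centralizer {s : ℕ} [hs : Fact s.Prime] (x : G) (hx : ¬ s ∣ idx x) :
    ∃ S : Sylow s G, (S : Subgroup G) ≤ Subgroup.centralizer {x} := by
  let C := Subgroup.centralizer ({x} : Set G)
  obtain ⟨S₀⟩ := (Sylow.nonempty : Nonempty (Sylow s C))
  have hsg : IsPGroup s ((S₀ : Subgroup C).map C.subtype) := S₀.2.map _
  have hidx : ¬ s ∣ ((S₀ : Subgroup C).map C.subtype).index := by
    rw [Subgroup.index_map_subtype]
    exact fun h => (hs.out.dvd_mul.1 h).elim S₀.not_dvd_index hx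
  refine ⟨hsg.toSylow hidx, ?_⟩
  rintro y ⟨z, -, rfl⟩
  exact z.2

theorem not_dvd_idx_of_le_centralizer {s : ℕ} [Fact s.Prime] (x : G) (S : Sylow s G)
    (h : (S : Subgroup G) ≤ Subgroup.centralizer {x}) : ¬ s ∣ idx x :=
  fun hd => S.not_dvd_index (hd.trans (Subgroup.index_dvd_of_le h))

/-- Two elements in the set of `s'`-index which differ by a central `s`-element are not conjugate. -/
theorem central_eq_one_of_conj {s : ℕ} [hs : Fact s.Prime] {x z g : G} (hx : ¬ s ∣ idx x)
    (hz : z ∈ Subgroup.center G) (hzs : ∃ k : ℕ, z ^ s ^ k = 1) (hg : g * x * g⁻¹ = x * z) :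
    z = 1 := by
  obtain ⟨S, hS⟩ := exists_sylow_le_centralizer (s := s) x hx
  have hSx : ∀ y ∈ (S : Subgroup G), y * x = x * y :=
    fun y hy => Subgroup.mem_centralizer_singleton_iff.1 (hS hy)
  have hzc : ∀ y : G, y * z = z * y := Subgroup.mem_center_iff.1 hz
  have hSxz : (S : Subgroup G) ≤ Subgroup.centralizer {x * z} := by
    intro y hy
    rw [Subgroup.mem_centralizer_singleton_iff, ← mul_assoc, hSx y hy, mul_assoc, hzc, mul_assoc]
  have hgS : ((g • S : Sylow s G) : Subgroup G) ≤ Subgroup.centralizer {x * z} := by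
    intro y hy
    rw [Sylow.coe_subgroup_smul, Subgroup.mem_pointwise_smul_iff_inv_smul_mem] at hy
    have h1 := hSx _ hy
    simp only [MulAut.smul_def, MulAut.conj_inv_apply] at h1
    rw [Subgroup.mem_centralizer_singleton_iff, ← hg]
    calc y * (g * x * g⁻¹) = g * ((g⁻¹ * y * g) * x) * g⁻¹ := by group
      _ = g * (x * (g⁻¹ * y * g)) * g⁻¹ := by rw [h1]
      _ = g * x * g⁻¹ * y := by group
  obtain ⟨c, hc⟩ := MulAction.exists_smul_eq ↥(Subgroup.centralizer ({x * z} : Set G))
    ((g • S).subtype hgS) (S.subtype hSxz)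
  have hn : ((c : G) * g) • S = S := by
    rw [Sylow.smul_subtype] at hc
    rw [mul_smul]
    exact Sylow.subtype_injective hc
  let n := (c : G) * g
  have hnN : n ∈ Subgroup.normalizer ((S : Subgroup G) : Set G) := Sylow.smul_eq_iff_mem_normalizer.1 hn
  have hnx : n * x * n⁻¹ = x * z := by
    have hc' := Subgroup.mem_centralizer_singleton_iff.1 c.2
    calc n * x * n⁻¹ = (c : G) * (g * x * g⁻¹) * (c : G)⁻¹ := by simp only [n]; group
      _ = (c : G) * (x * z) * (c : G)⁻¹ := by rw [hg]
      _ = x * z := by rw [hc', mul_inv_cancel_right]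
  have hpow : ∀ k : ℕ, n ^ k * x * (n ^ k)⁻¹ = x * z ^ k := by
    intro k
    induction k with
    | zero => simp
    | succ k ih =>
      calc n ^ (k + 1) * x * (n ^ (k + 1))⁻¹ = n ^ k * (n * x * n⁻¹) * (n ^ k)⁻¹ := by group
        _ = (n ^ k * x * (n ^ k)⁻¹) * (n ^ k * z * (n ^ k)⁻¹) := by rw [hnx]; group
        _ = x * z ^ k * z := by rw [ih, hzc, mul_inv_cancel_right]
        _ = x * z ^ (k + 1) := by rw [pow_succ, mul_assoc]
  let o := orderOf n
  have ho : o ≠ 0 := (orderOf_pos n).ne'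
  let b := ordCompl[s] o
  have hb : n ^ b ∈ (S : Subgroup G) := by
    have hpg : IsPGroup s ↥((S : Subgroup G) ⊔ Subgroup.zpowers (n ^ b)) := by
      refine IsPGroup.to_sup_of_normal_left' S.2 ?_ ?_
      · intro y
        obtain ⟨k, hk⟩ := Subgroup.mem_zpowers_iff.1 y.2
        refine ⟨o.factorization s, Subtype.ext ?_⟩
        rw [Subgroup.coe_pow, ← hk, Subgroup.coe_one, ← zpow_natCast ((n ^ b) ^ k), ← zpow_mul,
          mul_comm, zpow_mul, zpow_natCast, ← pow_mul, mul_comm b, Nat.ordProj_mul_ordCompl_eq_self,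
          pow_orderOf_eq_one, one_zpow]
      · exact Subgroup.zpowers_le.2 (pow_mem hnN b)
    have h := S.3 hpg le_sup_left
    rw [← h]
    exact Subgroup.mem_sup_right (Subgroup.mem_zpowers _)
  have h1 : z ^ b = 1 := by
    have h := hpow b
    rw [hSx _ hb, mul_inv_cancel_right] at h
    exact mul_left_cancel (h.symm.trans (mul_one x).symm)
  obtain ⟨k, hk⟩ := hzs
  have hcop : Nat.Coprime b (s ^ k) := ((Nat.coprime_ordCompl hs.out ho).pow_left k).symm
  have := pow_gcd_eq_one.2 ⟨h1, hk⟩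
  rwa [hcop.gcd_eq_one, pow_one] at this

/-- The elements of `s'`-index outside the centralizer of a Sylow subgroup are counted by a
multiple of `s |Z(G)_s|`. -/
theorem dvd_card_not_mem_centralizer {s : ℕ} [hs : Fact s.Prime] (S : Sylow s G) :
    s * Nat.card ↥((S : Subgroup G) ⊓ Subgroup.center G) ∣
      Nat.card {x : G // ¬ s ∣ idx x ∧ x ∉ Subgroup.centralizer ((S : Subgroup G) : Set G)} := by
  classical
  let Zs := (S : Subgroup G) ⊓ Subgroup.center G
  let X := {x : G // ¬ s ∣ idx x ∧ x ∉ Subgroup.centralizer ((S : Subgroup G) : Set G)}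
  have hz : ∀ (z : Zs) (y : G), y * z.1 = z.1 * y := fun z => Subgroup.mem_center_iff.1 z.2.2
  have hidx : ∀ (σ : G) (z : Zs) (x : G), idx (σ * x * σ⁻¹ * z.1) = idx x := by
    intro σ z x
    have h1 : Subgroup.centralizer ({σ * x * σ⁻¹ * z.1} : Set G) =
        (Subgroup.centralizer ({x} : Set G)).map (MulAut.conj σ).toMonoidHom := by
      ext y
      rw [Subgroup.mem_map_equiv, MulAut.conj_symm_apply, Subgroup.mem_centralizer_singleton_iff,
        Subgroup.mem_centralizer_singleton_iff]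
      constructor
      · intro h
        rw [← mul_assoc y, show σ * x * σ⁻¹ * z.1 * y = σ * x * σ⁻¹ * y * z.1 by
          rw [mul_assoc, ← hz, ← mul_assoc]] at h
        have h' := mul_right_cancel h
        calc σ⁻¹ * y * σ * x = σ⁻¹ * (y * (σ * x * σ⁻¹)) * σ := by group
          _ = σ⁻¹ * (σ * x * σ⁻¹ * y) * σ := by rw [h']
          _ = x * (σ⁻¹ * y * σ) := by group
      · intro h
        rw [← mul_assoc y, show σ * x * σ⁻¹ * z.1 * y = σ * x * σ⁻¹ * y * z.1 by
          rw [mul_assoc, ← hz, ← mul_assoc]]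
        congr 1
        calc y * (σ * x * σ⁻¹) = σ * (σ⁻¹ * y * σ * x) * σ⁻¹ := by group
          _ = σ * (x * (σ⁻¹ * y * σ)) * σ⁻¹ := by rw [h]
          _ = σ * x * σ⁻¹ * y := by group
    rw [idx, idx, h1]
    exact Subgroup.index_map_equiv _ (MulAut.conj σ)
  have hmem : ∀ (σ : (S : Subgroup G)) (z : Zs) (x : X),
      σ.1 * x.1 * σ.1⁻¹ * z.1 ∉ Subgroup.centralizer ((S : Subgroup G) : Set G) := by
    intro σ z x h
    refine x.2.2 (Subgroup.mem_centralizer_iff.2 fun y hy => ?_)
    have h1 := Subgroup.mem_centralizer_iff.1 h (σ.1 * y * σ.1⁻¹)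
      (mul_mem (mul_mem σ.2 hy) (inv_mem σ.2))
    rw [← mul_assoc (σ.1 * y * σ.1⁻¹), show σ.1 * x.1 * σ.1⁻¹ * z.1 * (σ.1 * y * σ.1⁻¹) =
      σ.1 * x.1 * σ.1⁻¹ * (σ.1 * y * σ.1⁻¹) * z.1 by rw [mul_assoc, ← hz, ← mul_assoc]] at h1
    have h2 := mul_right_cancel h1
    calc y * x.1 = σ.1⁻¹ * (σ.1 * y * σ.1⁻¹ * (σ.1 * x.1 * σ.1⁻¹)) * σ.1 := by group
      _ = σ.1⁻¹ * (σ.1 * x.1 * σ.1⁻¹ * (σ.1 * y * σ.1⁻¹)) * σ.1 := by rw [h2]
      _ = x.1 * y := by group
  letI act : MulAction (↥(S : Subgroup G) × ↥Zs) X :=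
    { smul := fun m x => ⟨m.1.1 * x.1 * m.1.1⁻¹ * m.2.1, by rw [hidx]; exact x.2.1, hmem m.1 m.2 x⟩
      one_smul := fun x => Subtype.ext (show (1 : G) * x.1 * 1⁻¹ * 1 = x.1 by simp)
      mul_smul := fun m m' x => Subtype.ext (show
        (m.1.1 * m'.1.1) * x.1 * (m.1.1 * m'.1.1)⁻¹ * (m.2.1 * m'.2.1) =
          m.1.1 * (m'.1.1 * x.1 * m'.1.1⁻¹ * m'.2.1) * m.1.1⁻¹ * m.2.1 by
        rw [hz m'.2 m.2.1]
        calc m.1.1 * m'.1.1 * x.1 * (m.1.1 * m'.1.1)⁻¹ * (m'.2.1 * m.2.1)
            = m.1.1 * (m'.1.1 * x.1 * m'.1.1⁻¹) * (m.1.1⁻¹ * m'.2.1) * m.2.1 := by group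
          _ = m.1.1 * (m'.1.1 * x.1 * m'.1.1⁻¹) * (m'.2.1 * m.1.1⁻¹) * m.2.1 := by rw [hz m'.2 m.1.1⁻¹]
          _ = _ := by group) }
  have hM : IsPGroup s (↥(S : Subgroup G) × ↥Zs) := by
    intro m
    obtain ⟨a, ha⟩ := S.2 m.1
    obtain ⟨b, hb⟩ := (S.2.to_le inf_le_left) m.2
    refine ⟨a + b, Prod.ext ?_ ?_⟩
    · rw [Prod.pow_fst, pow_add, pow_mul, ha, one_pow]; rfl
    · rw [Prod.pow_snd, pow_add, mul_comm, pow_mul, hb, one_pow]; rfl
  haveI : Fintype (MulAction.orbitRel.Quotient (↥(S : Subgroup G) × ↥Zs) X) := Fintype.ofFinite _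
  rw [show Nat.card {x : G // ¬ s ∣ idx x ∧ x ∉ Subgroup.centralizer ((S : Subgroup G) : Set G)} = _ from
    Nat.card_congr (MulAction.selfEquivSigmaOrbits (↥(S : Subgroup G) × ↥Zs) X), Nat.card_sigma]
  refine Finset.dvd_sum fun ω _ => ?_
  let x := ω.out
  obtain ⟨m, hm⟩ := hM.card_orbit x
  obtain ⟨j, hj⟩ := IsPGroup.iff_card.1 (S.2.to_le (inf_le_left : Zs ≤ S))
  obtain ⟨σ, hσ⟩ : ∃ σ : (S : Subgroup G), σ.1 * x.1 * σ.1⁻¹ ≠ x.1 := by
    by_contra h
    push Not at h
    refine x.2.2 (Subgroup.mem_centralizer_iff.2 fun y hy => ?_)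
    exact eq_mul_of_mul_inv_eq (h ⟨y, hy⟩)
  let f : Option Zs → MulAction.orbit (↥(S : Subgroup G) × ↥Zs) x := fun o =>
    match o with
    | none => ⟨(σ, 1) • x, MulAction.mem_orbit _ _⟩
    | some z => ⟨((1 : (S : Subgroup G)), z) • x, MulAction.mem_orbit _ _⟩
  have hzval : ∀ z : Zs, (((1 : (S : Subgroup G)), z) • x : X).1 = x.1 * z.1 := fun z =>
    show (1 : G) * x.1 * 1⁻¹ * z.1 = _ by simp
  have hσval : ((σ, (1 : Zs)) • x : X).1 = σ.1 * x.1 * σ.1⁻¹ :=
    show σ.1 * x.1 * σ.1⁻¹ * 1 = _ from mul_one _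
  have hne : ∀ z : Zs, σ.1 * x.1 * σ.1⁻¹ ≠ x.1 * z.1 := by
    intro z h
    obtain ⟨k, hk⟩ := (S.2.to_le inf_le_left) z
    have h1 : z.1 = 1 := central_eq_one_of_conj x.2.1 z.2.2 ⟨k, by simpa using congrArg Subtype.val hk⟩ h
    rw [h1, mul_one] at h
    exact hσ h
  have hf : Function.Injective f := by
    intro a b h
    have h' : (f a).1.1 = (f b).1.1 := by rw [h]
    rcases a with _ | a <;> rcases b with _ | b <;> simp only [f] at h'
    · rfl
    · rw [hσval, hzval] at h'; exact absurd h' (hne b)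
    · rw [hσval, hzval] at h'; exact absurd h'.symm (hne a)
    · rw [hzval, hzval] at h'; exact congrArg some (Subtype.ext (mul_left_cancel h'))
  have hle := Nat.card_le_card_of_injective f hf
  rw [Finite.card_option, hj, hm] at hle
  rw [hj, hm, ← pow_succ']
  exact pow_dvd_pow s ((Nat.pow_lt_pow_iff_right hs.out.one_lt).1 hle)

theorem card_sylow_inf_center {X : Type*} [Group X] [Finite X] {s : ℕ} [hs : Fact s.Prime] (T : Sylow s X) :
    Nat.card ↥((T : Subgroup X) ⊓ Subgroup.center X) = s ^ (Nat.card (Subgroup.center X)).factorization s := by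
  obtain ⟨P⟩ := (Sylow.nonempty : Nonempty (Sylow s (Subgroup.center X)))
  have hPT : (P : Subgroup _).map (Subgroup.center X).subtype = (T : Subgroup X) ⊓ Subgroup.center X := by
    apply le_antisymm
    · refine le_inf ?_ (Subgroup.map_subtype_le _)
      obtain ⟨T', hT'⟩ := (P.2.map (Subgroup.center X).subtype).exists_le_sylow
      obtain ⟨g, hg⟩ := MulAction.exists_smul_eq X T' T
      rintro y ⟨w, hw, rfl⟩
      rw [← hg, Sylow.coe_subgroup_smul, Subgroup.mem_pointwise_smul_iff_inv_smul_mem]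
      simp only [MulAut.smul_def, MulAut.conj_inv_apply]
      have hwc := Subgroup.mem_center_iff.1 w.2 g⁻¹
      simp only [Subgroup.coe_subtype]
      rw [hwc, inv_mul_cancel_right]
      exact hT' ⟨w, hw, rfl⟩
    · intro y hy
      have hp : IsPGroup s ↥(((T : Subgroup X) ⊓ Subgroup.center X).subgroupOf (Subgroup.center X)) :=
        (T.2.to_le inf_le_left).comap_subtype
      haveI := P.unique_of_normal (inferInstance : (P : Subgroup (Subgroup.center X)).Normal)
      obtain ⟨P', hP'⟩ := hp.exists_le_sylow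
      rw [Subsingleton.elim P' P] at hP'
      exact ⟨⟨y, hy.2⟩, hP' (show (⟨y, hy.2⟩ : Subgroup.center X) ∈ _ from hy), rfl⟩
  rw [← hPT, Subgroup.card_map_of_injective (Subgroup.subtype_injective _), P.card_eq_multiplicity]

/-- The main step: the counts force centers of Sylow subgroups to be central. -/
theorem center_sylow_le {H : Type*} [Group H] [Finite H]
    (h : ∀ k : ℕ, Nat.card {C : ConjClasses G // Nat.card C.carrier = k} =
      Nat.card {C : ConjClasses H // Nat.card C.carrier = k}) [Group.IsNilpotent H]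
    {s : ℕ} [hs : Fact s.Prime] (S : Sylow s G) :
    (S : Subgroup G) ⊓ Subgroup.centralizer ((S : Subgroup G) : Set G) ≤ Subgroup.center G := by
  classical
  have hcardG : Nat.card G = Nat.card H := by
    have := card_eq_of_class_counts h (fun _ => True)
    rwa [Nat.card_congr (Equiv.subtypeUnivEquiv fun _ => trivial),
      Nat.card_congr (Equiv.subtypeUnivEquiv fun _ => trivial)] at this
  have hcardZ : Nat.card (Subgroup.center G) = Nat.card (Subgroup.center H) := by
    have := card_eq_of_class_counts h (fun k => k = 1)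
    rwa [Nat.card_congr (Equiv.subtypeEquivRight fun x : G => idx_eq_one_iff x),
      Nat.card_congr (Equiv.subtypeEquivRight fun x : H => idx_eq_one_iff x)] at this
  obtain ⟨R⟩ := (Sylow.nonempty : Nonempty (Sylow s H))
  haveI hRn : (R : Subgroup H).Normal :=
    (Group.isNilpotent_of_finite_tfae (G := H)).out 0 3 rfl rfl |>.mp ‹_› s hs R
  haveI := R.unique_of_normal hRn
  have hT : Nat.card {x : G // ¬ s ∣ idx x} * Nat.card (S : Subgroup G) =
      Nat.card G * Nat.card ↥((S : Subgroup G) ⊓ Subgroup.center G) := by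
    rw [card_eq_of_class_counts h (fun k => ¬ s ∣ k), hcardG, card_sylow_inf_center S, hcardZ, ← card_sylow_inf_center R, Sylow.card_eq_multiplicity,
      hcardG, ← Sylow.card_eq_multiplicity R]
    have hset : ∀ x : H, ¬ s ∣ idx x ↔ x ∈ Subgroup.centralizer ((R : Subgroup H) : Set H) := by
      intro x
      constructor
      · intro hx
        obtain ⟨R', hR'⟩ := exists_sylow_le_centralizer x hx
        rw [Subsingleton.elim R' R] at hR'
        exact Subgroup.mem_centralizer_iff.2 fun y hy => Subgroup.mem_centralizer_singleton_iff.1 (hR' hy)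
      · intro hx
        exact not_dvd_idx_of_le_centralizer x R fun y hy =>
          Subgroup.mem_centralizer_singleton_iff.2 (Subgroup.mem_centralizer_iff.1 hx y hy)
    rw [Nat.card_congr (Equiv.subtypeEquivRight hset)]
    have h1 := card_sup_mul (Subgroup.centralizer ((R : Subgroup H) : Set H)) (R : Subgroup H)
    have htop : Subgroup.centralizer ((R : Subgroup H) : Set H) ⊔ (R : Subgroup H) = ⊤ := by
      rw [eq_top_iff]
      intro x _
      let k := orderOf x
      have hk : k ≠ 0 := (orderOf_pos x).ne'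
      have hcop : (ordProj[s] k).Coprime (ordCompl[s] k) := (Nat.coprime_ordCompl hs.out hk).pow_left _
      obtain ⟨u, v, huv⟩ : ∃ u v : ℤ, (1 : ℤ) = (ordProj[s] k : ℕ) * u + (ordCompl[s] k : ℕ) * v :=
        ⟨Nat.gcdA _ _, Nat.gcdB _ _, by rw [← Nat.gcd_eq_gcd_ab, hcop.gcd_eq_one]; rfl⟩
      have hx1 : x = (x ^ ordProj[s] k) ^ u * (x ^ ordCompl[s] k) ^ v := by
        rw [← zpow_natCast, ← zpow_natCast, ← zpow_mul, ← zpow_mul, ← zpow_add, ← huv, zpow_one]
      rw [hx1]
      refine mul_mem (Subgroup.zpow_mem _ (Subgroup.mem_sup_left ?_) _) (Subgroup.zpow_mem _ (Subgroup.mem_sup_right ?_) _)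
      · refine Subgroup.mem_centralizer_iff.2 fun y hy => ?_
        obtain ⟨a, ha⟩ := R.2 ⟨y, hy⟩
        refine (CfsgLib.Transfer.commute_of_coprime_of_isNilpotent ?_)
        refine Nat.Coprime.coprime_dvd_left (orderOf_dvd_of_pow_eq_one (n := s ^ a) (by simpa using congrArg Subtype.val ha)) ?_
        refine Nat.Coprime.coprime_dvd_right (orderOf_dvd_of_pow_eq_one (n := ordCompl[s] k) ?_) ((Nat.coprime_ordCompl hs.out hk).pow_left a)
        rw [← pow_mul, Nat.ordProj_mul_ordCompl_eq_self, pow_orderOf_eq_one]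
      · have hp : IsPGroup s ↥(Subgroup.zpowers (x ^ ordCompl[s] k)) := by
          refine IsPGroup.of_card (n := (orderOf (x ^ ordCompl[s] k)).factorization s) ?_
          rw [Nat.card_zpowers]
          have hd : orderOf (x ^ ordCompl[s] k) ∣ ordProj[s] k := orderOf_dvd_of_pow_eq_one (by
            rw [← pow_mul, mul_comm, Nat.ordProj_mul_ordCompl_eq_self, pow_orderOf_eq_one])
          obtain ⟨i, -, hi⟩ := (Nat.dvd_prime_pow hs.out).1 hd
          rw [hi, hs.out.factorization_pow, Finsupp.single_eq_same]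
        obtain ⟨R', hR'⟩ := hp.exists_le_sylow
        rw [Subsingleton.elim R' R] at hR'
        exact hR' (Subgroup.mem_zpowers _)
    have h2 : Subgroup.centralizer ((R : Subgroup H) : Set H) ⊓ (R : Subgroup H) =
        (R : Subgroup H) ⊓ Subgroup.center H := by
      rw [inf_comm]
      refine le_antisymm (le_inf inf_le_left fun x hx => ?_)
        (inf_le_inf_left _ (Subgroup.center_le_centralizer _))
      rw [← idx_eq_one_iff, idx, Subgroup.index_eq_one, eq_top_iff, ← htop, sup_le_iff]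
      refine ⟨fun y hy => Subgroup.mem_centralizer_singleton_iff.2 ?_, fun y hy => Subgroup.mem_centralizer_singleton_iff.2 ?_⟩
      · exact (Subgroup.mem_centralizer_iff.1 hy x hx.1).symm
      · exact Subgroup.mem_centralizer_iff.1 hx.2 y hy
    rw [htop, h2, Subgroup.card_top] at h1
    exact h1.symm
  intro z hz
  by_contra hzc
  let Zs := (S : Subgroup G) ⊓ Subgroup.center G
  let CS := Subgroup.centralizer ((S : Subgroup G) : Set G)
  have hlt : Zs < (S : Subgroup G) ⊓ CS := by
    refine lt_of_le_of_ne (inf_le_inf_left _ (Subgroup.center_le_centralizer _)) fun e => hzc ?_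
    exact (e.symm ▸ hz : z ∈ Zs).2
  obtain ⟨j, hj⟩ := IsPGroup.iff_card.1 (S.2.to_le (inf_le_left : Zs ≤ S))
  obtain ⟨i, hi⟩ := IsPGroup.iff_card.1 (S.2.to_le (inf_le_left : (S : Subgroup G) ⊓ CS ≤ S))
  have hji : j < i := by
    have := Set.ncard_lt_ncard (SetLike.coe_ssubset_coe.2 hlt)
    rw [← Nat.card_coe_set_eq, ← Nat.card_coe_set_eq] at this
    rw [← Nat.pow_lt_pow_iff_right hs.out.one_lt, ← hj, ← hi]
    exact this
  have hCS : s ^ (j + 1) ∣ Nat.card CS :=
    (pow_dvd_pow s hji).trans (hi ▸ Subgroup.card_dvd_of_le inf_le_right)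
  have hN := dvd_card_not_mem_centralizer S
  rw [hj, ← pow_succ'] at hN
  have hsplit : Nat.card {x : G // ¬ s ∣ idx x} = Nat.card CS +
      Nat.card {x : G // ¬ s ∣ idx x ∧ x ∉ CS} := by
    rw [← Nat.card_congr (Equiv.sumCompl fun x : {x : G // ¬ s ∣ idx x} => x.1 ∈ CS), Nat.card_sum,
      Nat.card_congr (Equiv.subtypeSubtypeEquivSubtypeInter (fun x : G => ¬ s ∣ idx x) (fun x => x ∉ CS))]
    congr 1
    refine (Nat.card_congr (Equiv.subtypeSubtypeEquivSubtype ?_)).trans rfl
    intro x hx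
    exact not_dvd_idx_of_le_centralizer x S fun y hy =>
      Subgroup.mem_centralizer_singleton_iff.2 (Subgroup.mem_centralizer_iff.1 hx y hy)
  have hdvd : s ^ (j + 1) ∣ Nat.card {x : G // ¬ s ∣ idx x} := hsplit ▸ dvd_add hCS hN
  rw [← Subgroup.card_mul_index (S : Subgroup G), mul_assoc, mul_comm _ (Nat.card (S : Subgroup G))] at hT
  have hT' : Nat.card {x : G // ¬ s ∣ idx x} = (S : Subgroup G).index * s ^ j := by
    rw [← hj]; exact Nat.eq_of_mul_eq_mul_left Nat.card_pos hT
  rw [hT', pow_succ', Nat.mul_dvd_mul_iff_right (pow_pos hs.out.pos j)] at hdvd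
  exact S.not_dvd_index hdvd

/-- A group with the class sizes of a nilpotent group is nilpotent. -/
theorem isNilpotent_of_class_counts {H : Type*} [Group H] [Finite H]
    (h : ∀ k : ℕ, Nat.card {C : ConjClasses G // Nat.card C.carrier = k} =
      Nat.card {C : ConjClasses H // Nat.card C.carrier = k}) [Group.IsNilpotent H] :
    Group.IsNilpotent G := by
  classical
  refine (Group.isNilpotent_of_finite_tfae (G := G)).out 0 3 rfl rfl |>.mpr ?_
  intro q hq Q
  -- elements of `q`-power index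
  have hU : ∀ x : G, (∀ s : ℕ, s.Prime → s ≠ q → ¬ s ∣ idx x) →
      x ∈ (Q : Subgroup G).normalCore ⊔ Subgroup.center G := by
    intro x hx
    let o := orderOf x
    have ho : o ≠ 0 := (orderOf_pos x).ne'
    have hcx : ∀ k : ℕ, Subgroup.centralizer ({x} : Set G) ≤ Subgroup.centralizer {x ^ k} := fun k y hy =>
      Subgroup.mem_centralizer_singleton_iff.2
        (Commute.pow_right (Subgroup.mem_centralizer_singleton_iff.1 hy) k)
    have hcen : ∀ s : ℕ, s.Prime → s ≠ q → x ^ ordCompl[s] o ∈ Subgroup.center G := by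
      intro s hs hsq
      haveI := Fact.mk hs
      obtain ⟨S, hS⟩ := exists_sylow_le_centralizer (s := s) (x ^ ordCompl[s] o)
        (fun hd => hx s hs hsq (hd.trans (Subgroup.index_dvd_of_le (hcx _))))
      refine center_sylow_le h S ⟨?_, Subgroup.mem_centralizer_iff.2 fun y hy =>
        Subgroup.mem_centralizer_singleton_iff.1 (hS hy)⟩
      have hpg : IsPGroup s ↥((S : Subgroup G) ⊔ Subgroup.zpowers (x ^ ordCompl[s] o)) := by
        refine IsPGroup.to_sup_of_normal_left' S.2 ?_ (Subgroup.zpowers_le.2 ?_)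
        · intro y
          obtain ⟨k, hk⟩ := Subgroup.mem_zpowers_iff.1 y.2
          refine ⟨o.factorization s, Subtype.ext ?_⟩
          rw [Subgroup.coe_pow, ← hk, Subgroup.coe_one, ← zpow_natCast ((x ^ ordCompl[s] o) ^ k), ← zpow_mul,
            mul_comm, zpow_mul, zpow_natCast, ← pow_mul, mul_comm (ordCompl[s] o), Nat.ordProj_mul_ordCompl_eq_self,
            pow_orderOf_eq_one, one_zpow]
        · refine Subgroup.centralizer_le_normalizer _ (Subgroup.mem_centralizer_iff.2 fun y hy => ?_)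
          exact Subgroup.mem_centralizer_singleton_iff.1 (hS hy)
      rw [← S.3 hpg le_sup_left]
      exact Subgroup.mem_sup_right (Subgroup.mem_zpowers _)
    -- some `q`-power of `x` is central
    let d := orderOf (QuotientGroup.mk' (Subgroup.center G) x)
    have hdo : d ∣ o := orderOf_map_dvd _ x
    have hd : x ^ ordProj[q] o ∈ Subgroup.center G := by
      rw [← QuotientGroup.eq_one_iff, QuotientGroup.mk_pow, ← QuotientGroup.mk'_apply, ← orderOf_dvd_iff_pow_eq_one]
      have hd0 : d ≠ 0 := (orderOf_pos _).ne'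
      show d ∣ _
      rw [← Nat.factorization_le_iff_dvd hd0 (pow_ne_zero _ hq.out.ne_zero), hq.out.factorization_pow]
      intro s
      by_cases hsq : s = q
      · rw [hsq, Finsupp.single_eq_same]
        exact (Nat.factorization_le_iff_dvd hd0 ho).2 hdo q
      rw [Finsupp.single_eq_of_ne hsq]
      by_cases hs : s.Prime
      · have h1 : d ∣ ordCompl[s] o := by
          rw [orderOf_dvd_iff_pow_eq_one, QuotientGroup.mk'_apply, ← QuotientGroup.mk_pow, QuotientGroup.eq_one_iff]
          exact hcen s hs hsq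
        refine le_of_eq (Nat.factorization_eq_zero_of_not_dvd fun hd' => ?_)
        exact Nat.not_dvd_ordCompl hs ho (hd'.trans h1)
      · rw [Nat.factorization_eq_zero_of_not_prime _ hs]
    obtain ⟨u, v, huv⟩ : ∃ u v : ℤ, (1 : ℤ) = (ordProj[q] o : ℕ) * u + (ordCompl[q] o : ℕ) * v := by
      refine ⟨Nat.gcdA (ordProj[q] o) (ordCompl[q] o), Nat.gcdB (ordProj[q] o) (ordCompl[q] o), ?_⟩
      rw [← Nat.gcd_eq_gcd_ab, ((Nat.coprime_ordCompl hq.out ho).pow_left _).gcd_eq_one]; rfl
    have hx1 : x = (x ^ ordProj[q] o) ^ u * (x ^ ordCompl[q] o) ^ v := by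
      rw [← zpow_natCast, ← zpow_natCast, ← zpow_mul, ← zpow_mul, ← zpow_add, ← huv, zpow_one]
    rw [hx1]
    refine mul_mem (Subgroup.zpow_mem _ (Subgroup.mem_sup_right hd) _)
      (Subgroup.zpow_mem _ (Subgroup.mem_sup_left ?_) _)
    -- the `q`-part lies in every Sylow subgroup
    let w := x ^ ordCompl[q] o
    have hwQ : ∃ Q' : Sylow q G, w ∈ (Q' : Subgroup G) := by
      have hp : IsPGroup q ↥(Subgroup.zpowers w) := by
        refine IsPGroup.of_card (n := (orderOf w).factorization q) ?_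
        rw [Nat.card_zpowers]
        have hd' : orderOf w ∣ ordProj[q] o := orderOf_dvd_of_pow_eq_one (by
          show (x ^ _) ^ _ = 1
          rw [← pow_mul, mul_comm, Nat.ordProj_mul_ordCompl_eq_self, pow_orderOf_eq_one])
        obtain ⟨i, -, hi⟩ := (Nat.dvd_prime_pow hq.out).1 hd'
        rw [hi, hq.out.factorization_pow, Finsupp.single_eq_same]
      obtain ⟨Q', hQ'⟩ := hp.exists_le_sylow
      exact ⟨Q', hQ' (Subgroup.mem_zpowers w)⟩
    obtain ⟨Q', hQ'⟩ := hwQ
    intro g
    have hidx : ∀ s : ℕ, s.Prime → s ≠ q → ¬ s ∣ idx w := fun s hs hsq hd' =>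
      hx s hs hsq (hd'.trans (Subgroup.index_dvd_of_le (hcx _)))
    -- `G = C(w) Q'`
    have hprod : ∀ g : G, ∃ a ∈ (Q' : Subgroup G), g * w * g⁻¹ = a * w * a⁻¹ := by
      intro g
      let C := Subgroup.centralizer ({w} : Set G)
      have hc : Nat.Coprime C.index (Q' : Subgroup G).index := by
        refine Nat.coprime_of_dvd fun k hk h1 h2 => ?_
        by_cases hkq : k = q
        · subst hkq; exact Q'.not_dvd_index h2
        · exact hidx k hk hkq h1
      have hrel : (Q' : Subgroup G).index ∣ (Q' : Subgroup G).relIndex C := by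
        have h1 : (Q' : Subgroup G).index ∣ C.index * (Q' : Subgroup G).relIndex C := by
          have h2 := Subgroup.relIndex_mul_index (inf_le_left : C ⊓ (Q' : Subgroup G) ≤ C)
          rw [Subgroup.inf_relIndex_left] at h2
          rw [mul_comm, h2]
          exact Subgroup.index_dvd_of_le inf_le_right
        exact (hc.symm.dvd_mul_left).1 h1
      have hle : Nat.card (G ⧸ (Q' : Subgroup G)) ≤ Nat.card (C ⧸ (Q' : Subgroup G).subgroupOf C) :=
        Nat.le_of_dvd Nat.card_pos hrel
      let f : C ⧸ (Q' : Subgroup G).subgroupOf C → G ⧸ (Q' : Subgroup G) :=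
        Quotient.map' Subtype.val (fun a b hab => by
          rw [QuotientGroup.leftRel_apply] at hab ⊢
          exact Subgroup.mem_subgroupOf.1 hab)
      have hfinj : Function.Injective f := by
        intro a b
        induction a using QuotientGroup.induction_on
        induction b using QuotientGroup.induction_on
        intro hab
        rename_i a b
        have h3 := QuotientGroup.eq.1 (show ((a : G) : G ⧸ (Q' : Subgroup G)) = ((b : G) : G ⧸ _) from hab)
        exact QuotientGroup.eq.2 (Subgroup.mem_subgroupOf.2 h3)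
      have hfsurj : Function.Surjective f := by
        have := (Nat.bijective_iff_injective_and_card f).2 ⟨hfinj, le_antisymm (Nat.card_le_card_of_injective f hfinj) hle⟩
        exact this.2
      obtain ⟨c, hc'⟩ := hfsurj ((g⁻¹ : G) : G ⧸ (Q' : Subgroup G))
      induction c using QuotientGroup.induction_on
      rename_i c
      have ha : (c : G)⁻¹ * g⁻¹ ∈ (Q' : Subgroup G) := QuotientGroup.eq.1 hc'
      refine ⟨g * c, by simpa using inv_mem ha, ?_⟩
      have := Subgroup.mem_centralizer_singleton_iff.1 c.2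
      rw [mul_assoc g (c : G) w, this]
      group
    obtain ⟨g', hg'⟩ := MulAction.exists_smul_eq G Q' Q
    obtain ⟨a, ha, hga⟩ := hprod (g'⁻¹ * g)
    rw [← hg', Sylow.coe_subgroup_smul, Subgroup.mem_pointwise_smul_iff_inv_smul_mem]
    simp only [MulAut.smul_def, MulAut.conj_inv_apply]
    have : g'⁻¹ * (g * w * g⁻¹) * g' = a * w * a⁻¹ := by rw [← hga]; group
    exact this ▸ mul_mem (mul_mem ha hQ') (inv_mem ha)
  -- counting
  let O := (Q : Subgroup G).normalCore
  have hcardU : Nat.card {x : H // ∀ s : ℕ, s.Prime → s ≠ q → ¬ s ∣ idx x} ≤ Nat.card ↥(O ⊔ Subgroup.center G) := by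
    rw [← card_eq_of_class_counts h (fun k => ∀ s : ℕ, s.Prime → s ≠ q → ¬ s ∣ k)]
    exact Nat.card_le_card_of_injective (fun x => (⟨x.1, hU x.1 x.2⟩ : ↥(O ⊔ Subgroup.center G)))
      (fun a b hab => Subtype.ext (by simpa using hab))
  obtain ⟨R⟩ := (Sylow.nonempty : Nonempty (Sylow q H))
  haveI hRn : (R : Subgroup H).Normal :=
    (Group.isNilpotent_of_finite_tfae (G := H)).out 0 3 rfl rfl |>.mp ‹_› q hq R
  have hsub : ∀ x : H, x ∈ (R : Subgroup H) ⊔ Subgroup.center H → ∀ s : ℕ, s.Prime → s ≠ q → ¬ s ∣ idx x := by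
    intro x hx s hs hsq
    haveI := Fact.mk hs
    obtain ⟨S⟩ := (Sylow.nonempty : Nonempty (Sylow s H))
    haveI : (S : Subgroup H).Normal :=
      (Group.isNilpotent_of_finite_tfae (G := H)).out 0 3 rfl rfl |>.mp ‹_› s inferInstance S
    refine not_dvd_idx_of_le_centralizer x S fun y hy => Subgroup.mem_centralizer_singleton_iff.2 ?_
    have : (R : Subgroup H) ⊔ Subgroup.center H ≤ Subgroup.centralizer ((S : Subgroup H) : Set H) := by
      refine sup_le (fun r hr => Subgroup.mem_centralizer_iff.2 fun y hy => ?_) (Subgroup.center_le_centralizer _)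
      exact (Subgroup.commute_of_normal_of_disjoint _ _ inferInstance inferInstance
        (IsPGroup.disjoint_of_ne s q hsq _ _ S.2 R.2) y r hy hr)
    exact Subgroup.mem_centralizer_iff.1 (this hx) y hy
  have h1 : Nat.card ↥((R : Subgroup H) ⊔ Subgroup.center H) ≤ Nat.card ↥(O ⊔ Subgroup.center G) :=
    le_trans (Nat.card_le_card_of_injective
      (fun x : ↥((R : Subgroup H) ⊔ Subgroup.center H) =>
        (⟨x.1, hsub x.1 x.2⟩ : {x : H // ∀ s : ℕ, s.Prime → s ≠ q → ¬ s ∣ idx x}))
      (fun a b hab => Subtype.ext (by simpa using hab))) hcardU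
  have hcardG : Nat.card G = Nat.card H := by
    have := card_eq_of_class_counts h (fun _ => True)
    rwa [Nat.card_congr (Equiv.subtypeUnivEquiv fun _ => trivial),
      Nat.card_congr (Equiv.subtypeUnivEquiv fun _ => trivial)] at this
  have hcardZ : Nat.card (Subgroup.center G) = Nat.card (Subgroup.center H) := by
    have := card_eq_of_class_counts h (fun k => k = 1)
    rwa [Nat.card_congr (Equiv.subtypeEquivRight fun x : G => idx_eq_one_iff x),
      Nat.card_congr (Equiv.subtypeEquivRight fun x : H => idx_eq_one_iff x)] at this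
  have h2 := card_sup_mul O (Subgroup.center G)
  have h3 := card_sup_mul (R : Subgroup H) (Subgroup.center H)
  -- compare the `q`-parts of the centers
  have h4 : Nat.card ↥((R : Subgroup H) ⊓ Subgroup.center H) ∣ Nat.card ↥(O ⊓ Subgroup.center G) := by
    have hle : (Q : Subgroup G) ⊓ Subgroup.center G ≤ O ⊓ Subgroup.center G := by
      refine le_inf ?_ inf_le_right
      haveI : ((Q : Subgroup G) ⊓ Subgroup.center G).Normal := ⟨fun y hy g => by
        rw [Subgroup.mem_center_iff.1 hy.2 g, mul_inv_cancel_right]; exact hy⟩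
      exact (Subgroup.normal_le_normalCore).2 inf_le_left
    refine dvd_trans (dvd_trans ?_ dvd_rfl) (Subgroup.card_dvd_of_le hle)
    obtain ⟨i, hi⟩ := IsPGroup.iff_card.1 (R.2.to_le (inf_le_left : (R : Subgroup H) ⊓ Subgroup.center H ≤ R))
    rw [hi]
    haveI : (Subgroup.center G).Normal := inferInstance
    have hdvd : q ^ i ∣ Nat.card (Subgroup.center G) := by
      rw [hcardZ, ← hi]; exact Subgroup.card_dvd_of_le inf_le_right
    obtain ⟨P, hP⟩ := Sylow.exists_subgroup_card_pow_prime q hdvd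
    rw [← hP, ← Subgroup.card_map_of_injective (K := P) (Subgroup.subtype_injective _)]
    refine Subgroup.card_dvd_of_le (le_inf ?_ (Subgroup.map_subtype_le P))
    obtain ⟨Q', hQ'⟩ := ((IsPGroup.of_card hP).map (Subgroup.center G).subtype).exists_le_sylow
    obtain ⟨g, hg⟩ := MulAction.exists_smul_eq G Q' Q
    rintro y ⟨w, hw, rfl⟩
    rw [← hg, Sylow.coe_subgroup_smul, Subgroup.mem_pointwise_smul_iff_inv_smul_mem]
    simp only [MulAut.smul_def, MulAut.conj_inv_apply, Subgroup.coe_subtype]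
    rw [Subgroup.mem_center_iff.1 w.2 g⁻¹, inv_mul_cancel_right]
    exact hQ' ⟨w, hw, rfl⟩
  have h5 : Nat.card (Q : Subgroup G) ≤ Nat.card O := by
    rw [Q.card_eq_multiplicity, hcardG, ← R.card_eq_multiplicity]
    have h6 := Nat.le_of_dvd Nat.card_pos h4
    have := Nat.mul_le_mul h1 h6
    rw [h2, h3, hcardZ] at this
    exact Nat.le_of_mul_le_mul_right this Nat.card_pos
  have h7 : O = (Q : Subgroup G) := Subgroup.eq_of_le_of_card_ge (Subgroup.normalCore_le _) h5
  exact h7 ▸ Subgroup.normalCore_normal _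

end CfsgLib.ClassSizeCount
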